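import Cfsg.Agent.JTH.Bound
import Cfsg.Agent.JTH.Tabs

set_option autoImplicit false
set_option Elab.async false
set_option maxRecDepth 100000
set_option linter.all false

namespace Cfsg.Agent.JTH
open Cfsg.Agent.CGT

noncomputable def c_l0 : Level := ⟨0, [[0], [2], [4], [6], [8], [10], [12], [14]], [0, 3, 4, 1, 5, 3], 0xffffffff, 32⟩
noncomputable def c_l1 : Level := ⟨3, [[2], [4]], [0, 0, 1, 0, 1, 0, 0, 0, 0], 0x7ee87ee8, 20⟩
noncomputable def c_l2 : Level := ⟨4, [[4]], [0, 0], 0x8110, 3⟩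
noncomputable def c_ls : List Level := [c_l0, c_l1, c_l2]
theorem c_l0_ok : (ptsOK 5 [] && (wordsIn [0, 2, 4, 6, 8, 10, 12, 14] c_l0.S && c_l0.ok 5 m_ns m_ts [])) = true := by decide +kernel
theorem c_l1_ok : (ptsOK 5 [0] && (wordsIn [0, 2, 4, 6, 8, 10, 12, 14] c_l1.S && c_l1.ok 5 m_ns m_ts [0])) = true := by decide +kernel
theorem c_l2_ok : (ptsOK 5 [3, 0] && (wordsIn [0, 2, 4, 6, 8, 10, 12, 14] c_l2.S && c_l2.ok 5 m_ns m_ts [3, 0])) = true := by decide +kernel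
theorem c_sound {G : Type*} [Group G] {φ : G →* Equiv.Perm ℕ} {γ : ℕ → G}
    (M : Model φ γ 5 m_ns m_ts) : ChainSound φ (gp γ [0, 2, 4, 6, 8, 10, 12, 14]) 5 [] c_ls :=
  ⟨Level.ok_sound' M c_l0_ok,
   Level.ok_sound' M c_l1_ok,
   Level.ok_sound' M c_l2_ok, trivial⟩
/-- the group -/
abbrev K : Type := PG 8 RR
/-- the generators -/
noncomputable abbrev γ : ℕ → K := pgγ 8 RR
theorem gen_top : gp γ [0, 2, 4, 6, 8, 10, 12, 14] = ⊤ := pg_gen _ (by decide +kernel)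
theorem cert : ∃ φ, Cert φ γ 5 m_ns m_ts [0, 2, 4, 6, 8, 10, 12, 14] c_ls := by
  obtain ⟨φ, hφ⟩ := pg_perm (m := 8) (ns := m_ns) rfl m_p
  have M : Model φ γ 5 m_ns m_ts := ⟨m_v, hφ, m_ts_ok⟩
  exact ⟨φ, Cert.of_bound M gen_top (c_sound M) ((bd0 (pg_holds _ _)).top gen_top) (by decide +kernel)⟩
theorem card_eq : Nat.card K = 1920 := by
  obtain ⟨φ, C⟩ := cert
  exact C.card.trans (by decide +kernel)

end Cfsg.Agent.JTH
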