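import Cfsg.Agent.CGT.DceMul

set_option autoImplicit false
set_option Elab.async false
set_option maxRecDepth 100000
set_option linter.all false

namespace Cfsg.Agent.JTH
open Cfsg.Agent.CGT

noncomputable def RR : List (List ℕ) := [[0, 0], [2, 2, 2, 2, 2], [4, 4, 4], [3, 4, 3, 4, 3, 4], [2, 4, 2, 4, 2, 4, 2, 4, 2, 4], [2, 2, 4, 2, 2, 4], [0, 4, 1, 5], [6, 4, 7, 5], [8, 8], [0, 2, 0, 2, 0, 2, 0, 2, 0, 2], [8, 2, 9, 3], [2, 0, 3, 7], [0, 6, 0, 6, 9], [2, 5, 2, 2, 11], [6, 10, 6, 13], [2, 4, 3, 5, 2, 15]]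

end Cfsg.Agent.JTH
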